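import Mathlib
import Cfsg.Agent.H777.ElimDef
import Cfsg.Agent.H749.RowL
import Cfsg.Agent.S0243

/-!
# `PSL_n(q)` and the groups with 3-part `3 ^ 10` (helper458, for S5229 and S5231)

* `core`: an abelian 3-subgroup `A` of `G` with `v_3 |G| ≤ v_3 |A| + 4` gives `Big (G ⧸ Z)`.
* `row_psl`.
-/

set_option autoImplicit false
set_option linter.unusedSectionVars false

namespace Cfsg.Agent.H458.Ab3

open Cfsg.Agent.H777.Elim Cfsg.Agent.H749

instance fact3 : Fact (Nat.Prime 3) := ⟨Nat.prime_three⟩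

theorem vn_iff {n : ℕ} {K : Type*} [Group K] [Finite K] : Vn n K ↔ (Nat.card K).factorization 3 = n := by
  have h0 : Nat.card K ≠ 0 := Nat.card_pos.ne'
  unfold Vn
  rw [Nat.prime_three.pow_dvd_iff_le_factorization h0, Nat.prime_three.pow_dvd_iff_le_factorization h0]
  omega

section core

variable {G : Type*} [Group G] [Finite G] (Z : Subgroup G) [Z.Normal]

theorem v_quot : (Nat.card G).factorization 3 = (Nat.card (G ⧸ Z)).factorization 3 + (Nat.card Z).factorization 3 := by
  rw [Subgroup.card_eq_card_quotient_mul_card_subgroup Z, Nat.factorization_mul Nat.card_pos.ne' Nat.card_pos.ne']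
  rfl

theorem core {A : Type*} [CommGroup A] [Finite A] (f : A →* G) (hf : Function.Injective f) (hA : IsPGroup 3 A)
    (h : (Nat.card G).factorization 3 ≤ (Nat.card A).factorization 3 + 4) (hV : Vn 10 (G ⧸ Z)) : Big (G ⧸ Z) := by
  obtain ⟨g, hg⟩ : ∃ g : A →* G ⧸ Z, g = (QuotientGroup.mk' Z).comp f := ⟨_, rfl⟩
  refine Or.inl ⟨g.range, ?_, ?_, ?_⟩
  · exact hA.of_surjective g.rangeRestrict g.rangeRestrict_surjective
  · rintro _ ⟨x, rfl⟩ _ ⟨y, rfl⟩
    rw [← map_mul, ← map_mul, mul_comm]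
  · have h1 : Nat.card g.ker ∣ Nat.card Z := by
      refine Subgroup.card_dvd_of_injective (f := (((f.comp g.ker.subtype).codRestrict Z) fun x => ?_)) ?_
      · have hx : g x.1 = 1 := x.2
        exact (QuotientGroup.eq_one_iff _).1 ((DFunLike.congr_fun hg x.1).symm.trans hx)
      · intro x y hxy
        exact Subtype.ext (hf (congrArg Subtype.val hxy))
    have h2 : (Nat.card g.ker).factorization 3 ≤ (Nat.card Z).factorization 3 :=
      (Nat.factorization_le_iff_dvd Nat.card_pos.ne' Nat.card_pos.ne').2 h1 3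
    have h3 : (Nat.card A).factorization 3 = (Nat.card g.range).factorization 3 + (Nat.card g.ker).factorization 3 := by
      rw [← Subgroup.card_mul_index g.ker, Subgroup.index_ker, mul_comm, Nat.factorization_mul Nat.card_pos.ne' Nat.card_pos.ne']
      rfl
    have h4 := v_quot Z
    have h5 := vn_iff.1 hV
    refine Nat.le_of_dvd Nat.card_pos ?_
    rw [Nat.prime_three.pow_dvd_iff_le_factorization Nat.card_pos.ne']
    omega

end core

/-- `v_3(n!) ≤ 4` for `n ≤ 11` -/
theorem v_fact {n : ℕ} (hn : n ≤ 11) : n.factorial.factorization 3 ≤ 4 := by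
  have h1 : n.factorial.factorization 3 ≤ (Nat.factorial 11).factorization 3 :=
    (Nat.factorization_le_iff_dvd (Nat.factorial_ne_zero _) (Nat.factorial_ne_zero _)).2 (Nat.factorial_dvd_factorial hn) 3
  have h2 : ¬ 3 ^ 5 ∣ Nat.factorial 11 := by decide
  rw [Nat.prime_three.pow_dvd_iff_le_factorization (Nat.factorial_ne_zero _)] at h2
  omega

/-- the 3-part of a finite commutative group -/
theorem exists_part (C : Type*) [CommGroup C] [Finite C] : ∃ P : Subgroup C, IsPGroup 3 P ∧
    (Nat.card P).factorization 3 = (Nat.card C).factorization 3 := by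
  obtain ⟨P⟩ : Nonempty (Sylow 3 C) := inferInstance
  refine ⟨P, P.isPGroup', ?_⟩
  rw [Sylow.card_eq_multiplicity P, Nat.Prime.factorization_pow Nat.prime_three, Finsupp.single_eq_same]

theorem card_pi {ι P : Type*} [Fintype ι] : (Nat.card (ι → P)).factorization 3 = Fintype.card ι * (Nat.card P).factorization 3 := by
  rw [Nat.card_fun, Nat.factorization_pow, Finsupp.smul_apply, smul_eq_mul, Nat.card_eq_fintype_card]

theorem isPGroup_pi {ι P : Type*} [Finite ι] [Finite P] [Group P] (hP : IsPGroup 3 P) : IsPGroup 3 (ι → P) := by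
  have := Fintype.ofFinite ι
  obtain ⟨n, hn⟩ := IsPGroup.iff_card.1 hP
  exact IsPGroup.of_card (n := n * Fintype.card ι) (by rw [Nat.card_fun, hn, ← pow_mul, Nat.card_eq_fintype_card])

/-! ### the order of `SL_n(q)` -/

theorem vSL {F : Type*} [Field F] [Finite F] {e : ℕ} (he : orderOf ((Nat.card F : ℤ) : ZMod 3) = e)
    (he0 : e ≠ 0) {n : ℕ} (hn : 1 ≤ n) :
    (Nat.card Fˣ).factorization 3 + (Nat.card (Matrix.SpecialLinearGroup (Fin n) F)).factorization 3 =
      (n / e) * (Nat.card F ^ e - 1).factorization 3 + (n / e).factorial.factorization 3 := by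
  have := Fintype.ofFinite F
  obtain ⟨q, hq⟩ : ∃ q, q = Nat.card F := ⟨_, rfl⟩
  have h := S0242.result (F := F) (q := q) (by rw [hq, Nat.card_eq_fintype_card]) n hn
  have hq1 : 1 < q := by rw [hq]; exact Finite.one_lt_card
  rw [Nat.card_units]
  rw [← hq] at he ⊢
  have hpq : ¬ ((3 : ℕ) : ℤ) ∣ (q : ℤ) := by
    intro h1
    have h2 : ((q : ℤ) : ZMod 3) = 0 := (ZMod.intCast_zmod_eq_zero_iff_dvd _ _).2 h1
    rw [h2] at he
    have h3 : orderOf (0 : ZMod 3) = 0 := by
      rw [orderOf_eq_zero_iff']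
      intro m hm
      rw [zero_pow hm.ne']
      exact zero_ne_one
    omega
  have hcast : ∀ m : ℕ, ((q ^ m - 1 : ℕ) : ℤ) = (q : ℤ) ^ m - 1 := fun m => by
    rw [Nat.cast_sub (Nat.one_le_pow _ _ (by omega)), Nat.cast_pow]; rfl
  have h1 : ((q - 1 : ℕ) : ℤ) = (q : ℤ) - 1 := by rw [Nat.cast_sub hq1.le]; rfl
  have hZ : ((q : ℤ) - 1) * (Nat.card (Matrix.SpecialLinearGroup (Fin n) F) : ℤ) =
      ∏ i ∈ Finset.range n, ((q : ℤ) ^ n - (q : ℤ) ^ i) := by
    rw [← h1, ← Nat.cast_mul, h, Nat.cast_prod, Fin.prod_univ_eq_prod_range (fun i => ((q ^ n - q ^ i : ℕ) : ℤ)) n]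
    refine Finset.prod_congr rfl fun i hi => ?_
    rw [Nat.cast_sub (Nat.pow_le_pow_right hq1.le (Finset.mem_range.1 hi).le), Nat.cast_pow, Nat.cast_pow]
  have hrev : ∏ i ∈ Finset.range n, ((q : ℤ) ^ n - (q : ℤ) ^ i) =
      (∏ i ∈ Finset.range n, (q : ℤ) ^ i) * ∏ i ∈ Finset.range n, ((q : ℤ) ^ (i + 1) - 1) := by
    rw [← Finset.prod_range_reflect (fun i => (q : ℤ) ^ (i + 1) - 1) n, ← Finset.prod_mul_distrib]
    refine Finset.prod_congr rfl fun i hi => ?_
    have hi' := Finset.mem_range.1 hi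
    rw [mul_sub, mul_one, ← pow_add]
    congr 2
    omega
  have hcard : (Nat.card (Matrix.SpecialLinearGroup (Fin n) F) : ℤ) ≠ 0 := by
    exact_mod_cast Nat.card_pos.ne'
  have hq1' : (q : ℤ) - 1 ≠ 0 := by
    have := pow_ne_one' hq1 1 one_ne_zero
    rw [pow_one] at this
    exact sub_ne_zero.2 this
  have hne : ∀ i ∈ Finset.range n, (q : ℤ) ^ (i + 1) - 1 ≠ 0 := fun i _ =>
    sub_ne_zero.2 (pow_ne_one' hq1 _ (Nat.succ_ne_zero i))
  have h2 := congrArg (vp 3) (hZ.trans hrev)
  rw [vp_mul 3 hq1' hcard, vp_mul 3 (Finset.prod_ne_zero_iff.2 fun i _ => pow_ne_zero _ (by positivity))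
    (Finset.prod_ne_zero_iff.2 hne), vp_prod (by decide) he (pow_ne_one' hq1), vp_natCast, ← h1, vp_natCast,
    ← hcast, vp_natCast] at h2
  have h4 : vp 3 (∏ i ∈ Finset.range n, (q : ℤ) ^ i) = 0 := by
    apply vp_eq_zero
    intro h4
    rw [Prime.dvd_finsetProd_iff (Nat.prime_iff_prime_int.1 Nat.prime_three)] at h4
    obtain ⟨i, -, h5⟩ := h4
    exact hpq ((Nat.prime_iff_prime_int.1 Nat.prime_three).dvd_of_dvd_pow h5)
  rw [h4, zero_add] at h2
  exact h2

theorem not_dvd {F : Type*} [Field F] [Finite F] (h3 : (3 : F) ≠ 0) : ¬ 3 ∣ Nat.card F := by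
  intro h
  obtain ⟨r, hr⟩ := CharP.exists F
  have hrp : r.Prime := CharP.char_is_prime F r
  have := Fintype.ofFinite F
  obtain ⟨k, -, hk⟩ := FiniteField.card F r
  rw [Nat.card_eq_fintype_card, hk] at h
  have h1 := Nat.prime_three.dvd_of_dvd_pow h
  have h2 : (3 : ℕ) = r := (Nat.prime_dvd_prime_iff_eq Nat.prime_three hrp).1 h1
  subst h2
  exact h3 (by exact_mod_cast CharP.cast_eq_zero F 3)

theorem order_cases {F : Type*} [Field F] [Finite F] (h3 : (3 : F) ≠ 0) :
    (orderOf ((Nat.card F : ℤ) : ZMod 3) = 1 ∧ 3 ∣ Nat.card F - 1) ∨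
      (orderOf ((Nat.card F : ℤ) : ZMod 3) = 2 ∧ 3 ∣ Nat.card F + 1) := by
  have h := not_dvd h3
  have h1 : Nat.card F % 3 = 1 ∨ Nat.card F % 3 = 2 := by omega
  rcases h1 with h1 | h1
  · refine Or.inl ⟨?_, by omega⟩
    rw [orderOf_eq_one_iff, Int.cast_natCast, ← ZMod.natCast_mod, h1, Nat.cast_one]
  · refine Or.inr ⟨?_, by omega⟩
    rw [Int.cast_natCast, ← ZMod.natCast_mod, h1]
    exact orderOf_eq_prime (by decide) (by decide)

/-- matrices of an injective representation with determinant one -/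
theorem exists_hom_SL {F V : Type*} [Field F] [AddCommGroup V] [Module F V] [Module.Finite F V] {n : ℕ}
    (hn : Module.finrank F V = n) {A : Type*} [Group A] (φ : A →* (V ≃ₗ[F] V)) (hφ : Function.Injective φ)
    (hd : ∀ a, LinearMap.det (φ a).toLinearMap = 1) :
    ∃ f : A →* Matrix.SpecialLinearGroup (Fin n) F, Function.Injective f := by
  obtain ⟨b⟩ : Nonempty (Module.Basis (Fin n) F V) := ⟨Module.finBasisOfFinrankEq F V hn⟩
  refine ⟨⟨⟨fun a => ⟨LinearMap.toMatrix b b (φ a).toLinearMap, by rw [LinearMap.det_toMatrix, hd]⟩, ?_⟩, ?_⟩, ?_⟩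
  · refine Subtype.ext ?_
    show LinearMap.toMatrix b b (φ 1).toLinearMap = 1
    rw [map_one]
    exact LinearMap.toMatrix_one b
  · intro x y
    refine Subtype.ext ?_
    show LinearMap.toMatrix b b (φ (x * y)).toLinearMap = LinearMap.toMatrix b b (φ x).toLinearMap * LinearMap.toMatrix b b (φ y).toLinearMap
    rw [map_mul, ← LinearMap.toMatrix_mul]
    rfl
  · intro x y h
    have h1 : LinearMap.toMatrix b b (φ x).toLinearMap = LinearMap.toMatrix b b (φ y).toLinearMap := congrArg Subtype.val h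
    have h2 := (LinearMap.toMatrix b b).injective h1
    exact hφ (LinearEquiv.toLinearMap_injective h2)

/-- diagonal matrices of determinant one -/
def diagHom {F : Type*} [Field F] (P : Subgroup Fˣ) (k : ℕ) : (Fin k → P) →* Matrix.SpecialLinearGroup (Fin (k + 1)) F where
  toFun u := ⟨Matrix.diagonal (Fin.cons (((∏ i, (u i : Fˣ))⁻¹ : Fˣ) : F) fun i => ((u i : Fˣ) : F)), by
    rw [Matrix.det_diagonal, Fin.prod_univ_succ, Fin.cons_zero]
    simp only [Fin.cons_succ]
    rw [← Units.coe_prod, ← Units.val_mul, inv_mul_cancel, Units.val_one]⟩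
  map_one' := by
    refine Subtype.ext ?_
    show Matrix.diagonal _ = (1 : Matrix _ _ F)
    rw [← Matrix.diagonal_one]
    congr 1
    funext i
    refine Fin.cases ?_ (fun j => ?_) i
    · simp
    · simp
  map_mul' u v := by
    refine Subtype.ext ?_
    show Matrix.diagonal _ = Matrix.diagonal _ * Matrix.diagonal _
    rw [Matrix.diagonal_mul_diagonal]
    congr 1
    funext i
    refine Fin.cases ?_ (fun j => ?_) i
    · simp only [Fin.cons_zero, Pi.mul_apply, Subgroup.coe_mul, Finset.prod_mul_distrib, mul_inv, Units.val_mul]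
    · simp

theorem diagHom_injective {F : Type*} [Field F] (P : Subgroup Fˣ) (k : ℕ) : Function.Injective (diagHom P k) := by
  intro u v h
  have h1 := Matrix.diagonal_injective (congrArg Subtype.val h)
  funext i
  have h2 := congrFun h1 i.succ
  simp only [Fin.cons_succ] at h2
  exact Subtype.ext (Units.ext h2)

theorem row_psl {n : ℕ} (hn : 2 ≤ n) {F : Type} [Field F] [Fintype F] (h3 : (3 : F) ≠ 0) :
    Row (Matrix.ProjectiveSpecialLinearGroup (Fin n) F) := by
  intro hV
  have hq1 : 1 < Nat.card F := Finite.one_lt_card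
  have hZ : Nat.card (Subgroup.center (Matrix.SpecialLinearGroup (Fin n) F)) = Nat.gcd n (Nat.card F - 1) := by
    have : Nonempty (Fin n) := ⟨⟨0, by omega⟩⟩
    rw [Nat.card_congr (Matrix.SpecialLinearGroup.center_equiv_rootsOfUnity'
      (n := Fin n) (R := F) ⟨0, by omega⟩).toEquiv, rootsOfUnity_eq_ker,
      IsCyclic.card_powMonoidHom_ker, Nat.card_units, Fintype.card_fin, Nat.gcd_comm]
  have hK := v_quot (Subgroup.center (Matrix.SpecialLinearGroup (Fin n) F))
  have hV' : (Nat.card (Matrix.SpecialLinearGroup (Fin n) F ⧸ Subgroup.center (Matrix.SpecialLinearGroup (Fin n) F))).factorization 3 = 10 :=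
    vn_iff.1 hV
  rcases order_cases h3 with ⟨he, h31⟩ | ⟨he, h31⟩
  · -- `q ≡ 1`
    have hS := vSL he one_ne_zero (n := n) (by omega)
    rw [Nat.div_one, pow_one, Nat.card_units] at hS
    obtain ⟨k, rfl⟩ : ∃ k, n = k + 1 := ⟨n - 1, by omega⟩
    obtain ⟨P, hP, hPc⟩ := exists_part Fˣ
    rw [Nat.card_units] at hPc
    have ha : 1 ≤ (Nat.card F - 1).factorization 3 :=
      Nat.prime_three.factorization_pos_of_dvd (by omega) h31
    have hZn : (Nat.card (Subgroup.center (Matrix.SpecialLinearGroup (Fin (k + 1)) F))).factorization 3 ≤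
        (k + 1).factorial.factorization 3 := by
      rw [hZ]
      exact (Nat.factorization_le_iff_dvd (Nat.gcd_pos_of_pos_left _ (by omega)).ne' (Nat.factorial_ne_zero _)).2
        ((Nat.gcd_dvd_left _ _).trans (Nat.dvd_factorial (by omega) le_rfl)) 3
    have hk : k + 1 ≤ 11 := by
      by_contra hk
      have : k ≤ k * (Nat.card F - 1).factorization 3 := Nat.le_mul_of_pos_right _ ha
      rw [add_mul, one_mul] at hS
      omega
    have := v_fact hk
    refine core _ (diagHom P k) (diagHom_injective P k) (isPGroup_pi hP) ?_ hV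
    rw [card_pi, Fintype.card_fin, hPc]
    rw [add_mul, one_mul] at hS
    omega
  · -- `q ≡ -1`
    have hS := vSL he two_ne_zero (n := n) (by omega)
    have hpq1 : ¬ 3 ∣ Nat.card F - 1 := by omega
    have hu : (Nat.card Fˣ).factorization 3 = 0 := by
      rw [Nat.card_units]
      exact Nat.factorization_eq_zero_of_not_dvd hpq1
    have hz : (Nat.card (Subgroup.center (Matrix.SpecialLinearGroup (Fin n) F))).factorization 3 = 0 := by
      rw [hZ]
      exact Nat.factorization_eq_zero_of_not_dvd fun h => hpq1 (h.trans (Nat.gcd_dvd_right _ _))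
    obtain ⟨L, _, _, _, hLcard, hLrank⟩ := exists_ext F 2 two_ne_zero
    have hLfin : Module.Finite F L := Module.Finite.of_finite
    obtain ⟨P, hP, hPc⟩ := exists_part Lˣ
    rw [Nat.card_units, hLcard] at hPc
    have ha : 1 ≤ (Nat.card F ^ 2 - 1).factorization 3 := by
      refine Nat.prime_three.factorization_pos_of_dvd ?_ ?_
      · have := Nat.one_lt_pow two_ne_zero hq1
        omega
      · have : Nat.card F ^ 2 - 1 = (Nat.card F + 1) * (Nat.card F - 1) := by
          have := Nat.sq_sub_sq (Nat.card F) 1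
          rwa [one_pow] at this
        rw [this]
        exact h31.mul_right _
    have hk : n / 2 ≤ 11 := by
      by_contra hk
      have : n / 2 ≤ n / 2 * (Nat.card F ^ 2 - 1).factorization 3 := Nat.le_mul_of_pos_right _ ha
      omega
    have := v_fact hk
    have hrank : Module.finrank F ((Fin (n / 2) → L) × (Fin (n - n / 2 * 2) → F)) = n := by
      rw [Module.finrank_prod, Module.finrank_fin_fun, Module.finrank_pi_fintype]
      simp only [Finset.sum_const, Finset.card_univ, Fintype.card_fin, hLrank, smul_eq_mul]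
      omega
    obtain ⟨φ, hφ⟩ : ∃ φ : (Fin (n / 2) → P) →* (((Fin (n / 2) → L) × (Fin (n - n / 2 * 2) → F)) ≃ₗ[F]
        ((Fin (n / 2) → L) × (Fin (n - n / 2 * 2) → F))), Function.Injective φ := by
      refine ⟨dg.comp (MonoidHom.pi fun i => ((mulE F).comp P.subtype).comp (Pi.evalMonoidHom _ i)), ?_⟩
      refine dg_injective.comp ?_
      intro u v h
      funext i
      exact Subtype.ext (mulE_injective F (congrFun h i))
    have hpi := isPGroup_pi (ι := Fin (n / 2)) hP
    obtain ⟨f, hf⟩ := exists_hom_SL hrank φ hφ (fun a => by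
      refine det_eq_one_of_pEl (p := 3) hpq1 ?_
      obtain ⟨k, hk⟩ := hpi a
      exact ⟨k, by rw [← map_pow, hk, map_one]⟩)
    refine core _ f hf hpi ?_ hV
    rw [card_pi, Fintype.card_fin, hPc]
    omega

end Cfsg.Agent.H458.Ab3
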